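import Cfsg.Agent.H699.CusGBase
import Cfsg.Agent.H993.OC.Field
import Cfsg.Agent.H145.BR.Defs

/-!
# S4891, defining characteristic, tool T6: cuspidal characters of `GL_k(K)` of small order (helper949)

`Dat p K k e c` : `c = ψ_θ` is the cuspidal character of `GL_k(K)` attached to a character `θ` of order `e` of `Lˣ`,
`[L : K] = k`, `q = |K|` : irreducible, cuspidal, of degree `∏ (q ^ i - 1)` (prime to `p`), `p`-rational, with the
behaviour under field automorphisms, duality, scalars, and the restriction to the matrices with determinant in `D`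
expressed by congruences modulo `e`.

`exists_dat` : existence, if `e ∣ q ^ k - 1` and `e ∤ q ^ i - 1` for `0 < i < k`.
-/

set_option autoImplicit false

open scoped ComplexConjugate
open Cfsg Polynomial

namespace Cfsg.Agent.H949.OC

open Cfsg.Agent.Characters Cfsg.Agent.H53.HC Cfsg.Agent.H139.Cusp Cfsg.Agent.H477.HC Cfsg.Agent.H576.Ext
  Cfsg.Agent.H699.CusG Cfsg.Agent.H145.BR Module

universe u v w

attribute [local instance] fintypeHom fintypeSub finite_quot

/-! ### the field of values -/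

section values

variable {K : Type u} [Field K] {L : Type w} [Field L] [Algebra K L] {θ : L →*₀ ℂ} {E : IntermediateField ℚ ℂ}

theorem lb_mem (h : ∀ x, θ x ∈ E) (f : K[X]) : lb L θ f ∈ E := by
  unfold lb
  refine E.multiset_sum_mem _ fun a ha => ?_
  obtain ⟨x, -, rfl⟩ := Multiset.mem_map.1 ha
  exact h x

theorem kap_mem {B : K[X] → ℂ} (hB : ∀ f, B f ∈ E) {V : Type v} [AddCommGroup V] [Module K V] [Finite V]
    (g : V →ₗ[K] V) (W : Submodule K V) : kap B g W ∈ E := by
  classical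
  induction W using (wellFounded_lt (α := Submodule K V)).induction with
  | _ W ih =>
    by_cases h : W ≤ W.comap g
    · rw [kap_eq B h]
      exact E.sub_mem (hB _) (E.sum_mem fun W' hW' => ih W' (Finset.mem_filter.1 hW').2)
    · rw [kap_of_not B h]
      exact E.zero_mem

theorem psi_mem [Finite K] (h : ∀ x, θ x ∈ E) {n : ℕ} (A : GL (Fin n) K) : psi L θ A ∈ E := by
  rw [psi, cuspMat, cusp]
  exact mul_mem (pow_mem (neg_mem (one_mem E)) _) (kap_mem (fun f => lb_mem h f) _ _)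

end values

/-! ### conjugate maps define the same character -/

theorem psi_frob {K : Type u} [Field K] [Finite K] {L : Type w} [Field L] [Finite L] [Algebra K L] {n : ℕ}
    (hn : Module.finrank K L = n) {θ θ' : L →*₀ ℂ} (i : ℕ) (h : ∀ x, θ' x = θ (x ^ Nat.card K ^ i)) :
    psi (n := n) (F := K) L θ' = psi L θ := by
  funext A
  have hsum : ∀ f : K[X], Irreducible f → f.natDegree ∣ Module.finrank K L → lb L θ f = lb L θ' f := by
    intro f hirr hd
    obtain ⟨j, hj⟩ := exists_frob K L i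
    exact (lb_ext j (fun x => by rw [hj, h]) hirr hd).symm
  rw [psi, psi, cuspMat, cuspMat, cusp, cusp, kap_congr_B (lb_mul L θ') (lb_mul L θ)
    (fun f _ hirr hd => (hsum f hirr (by
      rw [Module.finrank_fin_fun] at hd
      rw [hn]
      exact hd)).symm)]

/-! ### the data -/

/-- the cuspidal character of `GL_k(K)` attached to a character of order `e` -/
structure Dat (p : ℕ) (K : Type u) [Field K] (k e : ℕ) (c : GL (Fin k) K → ℂ) : Prop where
  irr : IsIrrCharacter _ c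
  cusp : IsCusp c
  deg : c 1 = ((∏ i ∈ Finset.Ico 1 k, (Nat.card K ^ i - 1) : ℕ) : ℂ)
  pdeg : ¬ p ∣ ∏ i ∈ Finset.Ico 1 k, (Nat.card K ^ i - 1)
  /-- the values lie in `ℚ(ζ_e)`, `p ∤ e` -/
  rat : PRat p c
  /-- field automorphisms -/
  fix : ∀ (τ : K →+* K) (j i : ℕ), (∀ x, τ x = x ^ p ^ j) → p ^ j ≡ Nat.card K ^ i [MOD e] → fmap τ c = c
  /-- duality: not self-dual -/
  dual : ∀ (σ : K →+* K) (s : ℕ), (∀ x, σ x = x ^ p ^ s) → (∀ i < k, ¬ e ∣ Nat.card K ^ i + p ^ s) → dualc σ c ≠ c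
  /-- duality: self-dual -/
  sdual : ∀ (σ : K →+* K) (s i : ℕ), (∀ x, σ x = x ^ p ^ s) → e ∣ Nat.card K ^ i + p ^ s → dualc σ c = c
  /-- scalars -/
  scal : ∀ z : Kˣ, z ^ ((Nat.card K ^ k - 1) / e) = 1 → ∀ g, c (Matrix.GeneralLinearGroup.scalar (Fin k) z * g) = c g
  /-- irreducibility on the matrices with determinant in `D` -/
  dirr : ∀ D : Subgroup Kˣ, (∀ i, 0 < i → i < k → ¬ e ∣ D.index * (Nat.card K ^ i - 1)) → DIrr D c
  /-- orthogonality to the dual on the matrices with determinant in `D` -/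
  dorth : ∀ (D : Subgroup Kˣ) (σ : K →+* K) (s : ℕ), (∀ x, σ x = x ^ p ^ s) →
    (∀ i < k, ¬ e ∣ D.index * (Nat.card K ^ i + p ^ s)) → DOrth D c (dualc σ c)

section

variable {p : ℕ} [Fact p.Prime] {K : Type u} [Field K] [Finite K] [CharP K p] {k e : ℕ}

omit [Fact p.Prime] in
theorem p_dvd_card : p ∣ Nat.card K := by
  have := Fintype.ofFinite K
  rw [Nat.card_eq_fintype_card]
  exact (CharP.cast_eq_zero_iff K p _).1 (FiniteField.cast_card_eq_zero K)

omit [Fact p.Prime] in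
theorem not_dvd_pow_sub (hp : p.Prime) {i : ℕ} (hi : i ≠ 0) : ¬ p ∣ Nat.card K ^ i - 1 := by
  have : Fact p.Prime := ⟨hp⟩
  intro h
  have h1 : p ∣ Nat.card K ^ i := dvd_pow (p_dvd_card (K := K)) hi
  have h2 : 0 < Nat.card K ^ i := pow_pos Nat.card_pos _
  have h3 : p ∣ 1 := by
    have h4 := Nat.dvd_sub h1 h
    rwa [Nat.sub_sub_self h2] at h4
  exact hp.one_lt.ne' (Nat.dvd_one.1 h3)

/-- **existence** -/
theorem exists_dat (hk : 0 < k) (he : e ∣ Nat.card K ^ k - 1)
    (hreg : ∀ i, 0 < i → i < k → ¬ e ∣ Nat.card K ^ i - 1) : ∃ c : GL (Fin k) K → ℂ, Dat p K k e c := by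
  classical
  have hp : p.Prime := Fact.out
  obtain ⟨L, _, _, _, hL⟩ := exists_L K k hk
  obtain ⟨φ, hφ⟩ := exists_theta L
  have hcardL : Nat.card Lˣ = Nat.card K ^ k - 1 := by
    rw [Nat.card_units, Module.natCard_eq_pow_finrank (K := K), hL]
  have hpos : 0 < Nat.card K ^ k - 1 := by rw [← hcardL]; exact Nat.card_pos
  have he0 : 0 < e := Nat.pos_of_dvd_of_pos he hpos
  set a : ℕ := (Nat.card K ^ k - 1) / e with ha_def
  have hae : a * e = Nat.card K ^ k - 1 := Nat.div_mul_cancel he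
  have ha : a ≠ 0 := by
    intro h
    rw [h, zero_mul] at hae
    exact hpos.ne hae
  have hapos : 0 < a := Nat.pos_of_ne_zero ha
  have hR : Regular K k (powTheta φ a ha) := (regular_powTheta_iff hφ ha hL).2 fun i hi hik h => by
    rw [← hae] at h
    exact hreg i hi hik (Nat.dvd_of_mul_dvd_mul_left hapos h)
  have hpp : ∀ s : ℕ, p ^ s ≠ 0 := fun s => (pow_pos hp.pos s).ne'
  have hpow : ∀ s : ℕ, powTheta (powTheta φ a ha) (p ^ s) (hpp s) = powTheta φ (a * p ^ s) (mul_ne_zero ha (hpp s)) := by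
    intro s
    ext x
    rw [powTheta_apply, powTheta_apply, powTheta_apply, ← pow_mul]
  have hDdvd : ∀ D : Subgroup Kˣ, D.index ∣ Nat.card K ^ k - 1 := fun D => by
    have h1 : D.index ∣ Nat.card K - 1 := ⟨Nat.card D, by rw [mul_comm, index_mul_card]⟩
    have h2 : Nat.card K - 1 ∣ Nat.card K ^ k - 1 := by
      have := Nat.sub_dvd_pow_sub_pow (Nat.card K) 1 k
      rwa [one_pow] at this
    exact h1.trans h2
  have hM : ∀ D : Subgroup Kˣ, (Nat.card K ^ k - 1) / D.index * D.index = Nat.card K ^ k - 1 :=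
    fun D => Nat.div_mul_cancel (hDdvd D)
  have key : ∀ (D : Subgroup Kˣ) (x : ℕ), (Nat.card K ^ k - 1) / D.index ∣ a * x → e ∣ D.index * x := by
    intro D x h
    have h1 := Nat.mul_dvd_mul_right h D.index
    rw [hM, ← hae, mul_assoc, mul_comm x] at h1
    exact Nat.dvd_of_mul_dvd_mul_left hapos h1
  refine ⟨psi L (powTheta φ a ha), psi_isIrr _ hL hR, psi_isCusp L _, ?_, ?_, ?_, ?_, ?_, ?_, ?_, ?_, ?_⟩
  · rw [psi_one L _ hk, degP_eq_Ico]
  · intro h
    obtain ⟨i, hi, h1⟩ := (Prime.dvd_finsetProd_iff hp.prime _).1 h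
    rw [Finset.mem_Ico] at hi
    exact not_dvd_pow_sub (K := K) hp (by omega) h1
  · refine ⟨e, fun h => not_dvd_pow_sub (K := K) hp hk.ne' (h.trans he), fun A => psi_mem (fun x => ?_) A⟩
    by_cases hx : x = 0
    · rw [hx, map_zero]
      exact IntermediateField.zero_mem _
    · have h1 : powTheta φ a ha x ^ e = 1 := by
        rw [powTheta_apply, ← pow_mul, hae, ← hcardL, ← map_pow]
        have h3 : (Units.mk0 x hx) ^ Nat.card Lˣ = 1 := pow_card_eq_one'
        have h4 : x ^ Nat.card Lˣ = 1 := congrArg Units.val h3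
        rw [h4, map_one]
      have hne : NeZero e := ⟨he0.ne'⟩
      obtain ⟨i, -, hi⟩ := (Complex.isPrimitiveRoot_exp e he0.ne').eq_pow_of_pow_eq_one h1
      rw [← hi]
      exact IntermediateField.pow_mem _ (IntermediateField.subset_adjoin ℚ _ (Set.mem_singleton _)) i
  · intro τ j i hτ hj
    rw [fmap_psi hL hτ]
    refine psi_frob hL i ?_
    rw [hpow]
    refine (powTheta_eq_iff hφ ha (mul_ne_zero ha (hpp j)) (pow_ne_zero i (Nat.card_pos (α := K)).ne')).2 ?_
    rw [hcardL, ← hae]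
    exact Nat.ModEq.mul_left' a hj
  · intro σ s hσ hd h
    rw [dualc_psi hL hσ] at h
    have h1 : ∀ g : ((Fin k → K) →ₗ[K] (Fin k → K))ˣ, cusp L (powTheta φ a ha) (g : (Fin k → K) →ₗ[K] (Fin k → K)) =
        cusp L (conjTheta (powTheta (powTheta φ a ha) (p ^ s) (hpp s))) (g : (Fin k → K) →ₗ[K] (Fin k → K)) := by
      intro g
      have h2 := congrFun h (Matrix.GeneralLinearGroup.toLin.symm g)
      have h4 : ∀ θ' : L →*₀ ℂ, psi L θ' (Matrix.GeneralLinearGroup.toLin.symm g) =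
          cusp L θ' (g : (Fin k → K) →ₗ[K] (Fin k → K)) := by
        intro θ'
        have h5 : Matrix.GeneralLinearGroup.toLin (Matrix.GeneralLinearGroup.toLin.symm g) = g :=
          MulEquiv.apply_symm_apply _ g
        conv_rhs => rw [← h5]
        rfl
      rw [h4, h4] at h2
      exact h2.symm
    obtain ⟨i, hi, h2⟩ := (cusp_eq_iff (V := Fin k → K) (powTheta φ a ha) _
      (by rw [Module.finrank_fin_fun, hL]) (by rw [hL]; exact hR)).1 h1
    rw [hL] at hi
    rw [hpow] at h2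
    have h3 := (conj_powTheta_eq_iff hφ ha (mul_ne_zero ha (hpp s)) (pow_ne_zero i (Nat.card_pos (α := K)).ne')).1 h2
    rw [hcardL, ← hae, ← mul_add] at h3
    exact hd i hi (Nat.dvd_of_mul_dvd_mul_left hapos h3)
  · intro σ s i hσ hd
    rw [dualc_psi hL hσ]
    refine psi_frob hL i ?_
    rw [hpow]
    refine (conj_powTheta_eq_iff hφ ha (mul_ne_zero ha (hpp s)) (pow_ne_zero i (Nat.card_pos (α := K)).ne')).2 ?_
    rw [hcardL, ← hae, ← mul_add]
    exact Nat.mul_dvd_mul_left a hd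
  · intro z hz g
    rw [psi_scalar (powTheta φ a ha) hL z g, powTheta_eq_one ha, one_mul]
    rw [← map_pow, ← Units.val_pow_eq_pow_val, hz, Units.val_one, map_one]
  · intro D hD
    refine dirr_pow hφ hL hk D (hM D) ha fun i hi hik h => hD i hi hik (key D _ ?_)
    have h1 : 1 ≤ Nat.card K ^ i := Nat.one_le_pow _ _ Nat.card_pos
    have h2 : (a : ℤ) - a * (Nat.card K : ℤ) ^ i = -((a * (Nat.card K ^ i - 1) : ℕ) : ℤ) := by
      push_cast [Nat.cast_sub h1]; ring
    rw [h2, dvd_neg] at h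
    exact Int.natCast_dvd_natCast.1 h
  · intro D σ s hσ hD
    rw [dualc_psi hL hσ, hpow]
    refine dorth_pow_conj hφ hL D (hM D) ha (mul_ne_zero ha (hpp s)) fun i hi h => hD i hi (key D _ ?_)
    have h2 : ((a * p ^ s : ℕ) : ℤ) + a * (Nat.card K : ℤ) ^ i = ((a * (Nat.card K ^ i + p ^ s) : ℕ) : ℤ) := by
      push_cast; ring
    rw [h2] at h
    exact Int.natCast_dvd_natCast.1 h

variable {c : GL (Fin k) K → ℂ}

omit [Fact p.Prime] [Finite K] [CharP K p] in
theorem Dat.exists_deg (h : Dat p K k e c) : ∃ d : ℕ, c 1 = d ∧ ¬ p ∣ d := ⟨_, h.deg, h.pdeg⟩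

/-- the automorphisms `τ ^ m` fix `c` -/
theorem Dat.hfix (h : Dat p K k e c) {m : ℕ} (hm : ¬ p ∣ m) (H : ∀ n, ∃ i, p ^ (n * m) ≡ Nat.card K ^ i [MOD e])
    (τ : K ≃+* K) : ∃ m : ℕ, ¬ p ∣ m ∧ fmap ((τ ^ m : K ≃+* K) : K →+* K) c = c := by
  obtain ⟨n, hn⟩ := H993.OC.exists_frob (p := p) τ
  obtain ⟨i, hi⟩ := H n
  exact ⟨m, hm, h.fix _ (n * m) i (fun x => H993.OC.frob_iter hn m x) hi⟩

omit [Fact p.Prime] [Finite K] [CharP K p] in
/-- scalars -/
theorem Dat.scal_one (h : Dat p K k e c) {z : Kˣ} (hz : z ^ ((Nat.card K ^ k - 1) / e) = 1) :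
    c (Matrix.GeneralLinearGroup.scalar (Fin k) z) = c 1 := by
  have := h.scal z hz 1
  rwa [mul_one] at this

omit [Fact p.Prime] [Finite K] [CharP K p] in
/-- the scalar `-1` -/
theorem Dat.scal_neg_one (h : Dat p K k e c) (h2 : Even ((Nat.card K ^ k - 1) / e)) :
    c (Matrix.GeneralLinearGroup.scalar (Fin k) (-1)) = c 1 :=
  h.scal_one h2.neg_one_pow

end

end Cfsg.Agent.H949.OC
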