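import Cfsg.Agent.H949.OC.Cus
import Mathlib.Data.Nat.Multiplicity

/-!
# S4891, defining characteristic, tool T6: the concrete cuspidal characters (helper949)

`Good p K k e c` : `Dat p K k e c` and the hypothesis `hfix` of `H993.OC.hc_wt`.

* `exists_decomp`, `exists_decomp_two` : `|K| = p ^ (f₀ p ^ l)`, resp. `|K| = (p ^ (f₀ p ^ l)) ^ 2`, `p ∤ f₀`;
* `exists_two` : `k = 2`, `e ∣ q₀² - 1`, `e ∤ q₀ - 1`;
* `exists_half` (R3, R9, R10; `q₀ ≥ 5`): `k = 2`, `e = (q₀² - 1) / 2`;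
* `exists_full` (R8; R5, R9, R10 with `q₀ = 3`, `e = 8`): `k = 2`, `e = q₀² - 1`;
* `exists_plus` (R1; R4 with `q₀ = 3`, `e = 4`): `k = 2`, `e = q₀ + 1`, self-dual, trivial on the scalars;
* `exists_four` (R3, R9, R10; `q₀ = 3`): `k = 4`, `e = 20`;
* `exists_unitary` (R6): `|K| = q²`, `k = 2`, `e = (q₀² + 1) / 2`.
-/

set_option autoImplicit false

open scoped ComplexConjugate
open Cfsg Polynomial

namespace Cfsg.Agent.H949.OC

open Cfsg.Agent.Characters Cfsg.Agent.H53.HC Cfsg.Agent.H139.Cusp Cfsg.Agent.H477.HC Cfsg.Agent.H576.Ext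
  Cfsg.Agent.H699.CusG Cfsg.Agent.H145.BR Module

universe u

/-- the data and the hypothesis `hfix` of the engine -/
structure Good (p : ℕ) (K : Type u) [Field K] (k e : ℕ) (c : GL (Fin k) K → ℂ) : Prop extends Dat p K k e c where
  hfix : ∀ τ : K ≃+* K, ∃ m : ℕ, ¬ p ∣ m ∧ fmap ((τ ^ m : K ≃+* K) : K →+* K) c = c

/-! ### arithmetic -/

section arith

theorem dvd_sub_one_iff {x e : ℕ} (hx : 1 ≤ x) : e ∣ x - 1 ↔ x ≡ 1 [MOD e] :=
  ⟨fun h => ((Nat.modEq_iff_dvd' hx).2 h).symm, fun h => (Nat.modEq_iff_dvd' hx).1 h.symm⟩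

theorem odd_pow_modEq {a e n : ℕ} (ha : 1 ≤ a) (h : e ∣ a ^ 2 - 1) (hn : Odd n) : a ^ n ≡ a [MOD e] := by
  obtain ⟨r, rfl⟩ := hn
  have h1 : a ^ 2 ≡ 1 [MOD e] := (dvd_sub_one_iff (Nat.one_le_pow _ _ ha)).1 h
  have h2 : (a ^ 2) ^ r * a ≡ 1 ^ r * a [MOD e] := (h1.pow r).mul_right a
  rw [one_pow, one_mul] at h2
  rw [pow_succ, pow_mul]
  exact h2

theorem dvd_mul_sub_iff {q a e d : ℕ} (hq : 1 ≤ q) (ha : 1 ≤ a) (h : q ≡ a [MOD e]) :
    e ∣ d * (q - 1) ↔ e ∣ d * (a - 1) := by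
  have key : ∀ {x y : ℕ}, 1 ≤ x → 1 ≤ y → x ≡ y [MOD e] → e ∣ d * (x - 1) → e ∣ d * (y - 1) := by
    intro x y hx hy hxy hd
    have h1 : (e : ℤ) ∣ y - x := Nat.modEq_iff_dvd.1 hxy
    have h2 : (e : ℤ) ∣ ((d * (x - 1) : ℕ) : ℤ) := Int.natCast_dvd_natCast.2 hd
    have h3 : ((d * (y - 1) : ℕ) : ℤ) = ((d * (x - 1) : ℕ) : ℤ) + d * (y - x) := by
      push_cast [Nat.cast_sub hx, Nat.cast_sub hy]; ring
    exact Int.natCast_dvd_natCast.1 (by rw [h3]; exact dvd_add h2 (Dvd.dvd.mul_left h1 _))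
  exact ⟨key hq ha h, key ha hq h.symm⟩

theorem dvd_mul_add_iff {q a e d : ℕ} (h : q ≡ a [MOD e]) : e ∣ d * (q + 1) ↔ e ∣ d * (a + 1) :=
  (Nat.ModEq.mul_left d (h.add_right 1)).dvd_iff dvd_rfl

variable {p : ℕ} [hp : Fact p.Prime] {K : Type u} [Field K] [Finite K] [CharP K p]

/-- `|K| = p ^ (f₀ p ^ l)` -/
theorem exists_decomp (p : ℕ) [hp : Fact p.Prime] (K : Type u) [Field K] [Finite K] [CharP K p] :
    ∃ f₀ l : ℕ, ¬ p ∣ f₀ ∧ Nat.card K = p ^ (f₀ * p ^ l) := by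
  have := Fintype.ofFinite K
  obtain ⟨n, -, hn⟩ := FiniteField.card K p
  obtain ⟨l, f₀, hf, h⟩ := Nat.exists_eq_pow_mul_and_not_dvd n.ne_zero p hp.out.ne_one
  exact ⟨f₀, l, hf, by rw [Nat.card_eq_fintype_card, hn, h, mul_comm]⟩

/-- `|K| = q ^ 2`, `q = p ^ (f₀ p ^ l)` -/
theorem exists_decomp_two {q : ℕ} (hq : Nat.card K = q ^ 2) : ∃ f₀ l : ℕ, ¬ p ∣ f₀ ∧ q = p ^ (f₀ * p ^ l) := by
  have := Fintype.ofFinite K
  obtain ⟨n, -, hn⟩ := FiniteField.card K p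
  rw [← Nat.card_eq_fintype_card, hq] at hn
  have h1 : q ∣ p ^ (n : ℕ) := by rw [← hn]; exact dvd_pow_self q two_ne_zero
  obtain ⟨m, -, hm⟩ := (Nat.dvd_prime_pow hp.out).1 h1
  have hm0 : m ≠ 0 := by
    rintro rfl
    rw [hm, pow_zero, one_pow] at hq
    have : 1 < Nat.card K := Finite.one_lt_card
    omega
  obtain ⟨l, f₀, hf, h⟩ := Nat.exists_eq_pow_mul_and_not_dvd hm0 p hp.out.ne_one
  exact ⟨f₀, l, hf, by rw [hm, h, mul_comm]⟩

end arith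

section

variable {p : ℕ} [hp : Fact p.Prime] {K : Type u} [Field K] [Finite K] [CharP K p] {f₀ l : ℕ}

omit hp in
theorem f_ne (hf : ¬ p ∣ f₀) : f₀ ≠ 0 := by
  rintro rfl
  exact hf (dvd_zero p)

theorem three_le (hp2 : p ≠ 2) (hf : ¬ p ∣ f₀) : 3 ≤ p ^ f₀ := by
  have h1 : p ^ 1 ≤ p ^ f₀ := Nat.pow_le_pow_right hp.out.pos (Nat.one_le_iff_ne_zero.2 (f_ne hf))
  have h2 : 2 < p := lt_of_le_of_ne hp.out.two_le (Ne.symm hp2)
  rw [pow_one] at h1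
  omega

/-- `q ≡ q₀` modulo the divisors of `q₀² - 1` -/
theorem card_modEq (hp2 : p ≠ 2) {q : ℕ} (hK : q = p ^ (f₀ * p ^ l)) {e : ℕ} (he : e ∣ (p ^ f₀) ^ 2 - 1) :
    q ≡ p ^ f₀ [MOD e] := by
  rw [hK, pow_mul]
  exact odd_pow_modEq (Nat.one_le_pow _ _ hp.out.pos) he ((hp.out.odd_of_ne_two hp2).pow)

/-- **`k = 2`, `e ∣ q₀² - 1`, `e ∤ q₀ - 1`** -/
theorem exists_two (hp2 : p ≠ 2) (hf : ¬ p ∣ f₀) (hK : Nat.card K = p ^ (f₀ * p ^ l)) {e : ℕ}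
    (he : e ∣ (p ^ f₀) ^ 2 - 1) (hne : ¬ e ∣ p ^ f₀ - 1) : ∃ c : GL (Fin 2) K → ℂ, Good p K 2 e c := by
  have hq0 : 1 ≤ p ^ f₀ := Nat.one_le_pow _ _ hp.out.pos
  have hq : 1 ≤ Nat.card K := Nat.card_pos
  have hmod := card_modEq hp2 hK he
  have h1 : e ∣ Nat.card K ^ 2 - 1 := by
    rw [dvd_sub_one_iff (Nat.one_le_pow _ _ hq)]
    exact (hmod.pow 2).trans ((dvd_sub_one_iff (Nat.one_le_pow _ _ hq0)).1 he)
  obtain ⟨c, hc⟩ := exists_dat (p := p) (K := K) two_pos h1 (fun i hi hi2 h => by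
    have : i = 1 := by omega
    rw [this, pow_one, dvd_sub_one_iff hq] at h
    exact hne ((dvd_sub_one_iff hq0).2 (hmod.symm.trans h)))
  refine ⟨c, ⟨hc, hc.hfix hf fun n => ⟨n, ?_⟩⟩⟩
  rw [mul_comm n f₀, pow_mul]
  exact (hmod.symm.pow n)

omit hp [CharP K p] in
/-- a convenient form of the conditions for `k = 2` -/
theorem Good.two {e : ℕ} {c : GL (Fin 2) K → ℂ} (h : Good p K 2 e c) {a : ℕ} (ha : 1 ≤ a)
    (hmod : Nat.card K ≡ a [MOD e]) :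
    (¬ e ∣ 2 → ¬ e ∣ a + 1 → dualc (RingHom.id K) c ≠ c) ∧
    (∀ D : Subgroup Kˣ, ¬ e ∣ D.index * (a - 1) → DIrr D c) ∧
    (∀ D : Subgroup Kˣ, ¬ e ∣ D.index * 2 → ¬ e ∣ D.index * (a + 1) → DOrth D c (dualc (RingHom.id K) c)) := by
  have hq : 1 ≤ Nat.card K := Nat.card_pos
  refine ⟨fun h1 h2 => h.dual _ 0 (fun x => by rw [pow_zero, pow_one]; rfl) fun i hi hd => ?_, fun D hD => ?_,
    fun D h1 h2 => h.dorth D _ 0 (fun x => by rw [pow_zero, pow_one]; rfl) fun i hi hd => ?_⟩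
  · rw [pow_zero] at hd
    interval_cases i
    · exact h1 (by simpa using hd)
    · rw [pow_one, ← one_mul (Nat.card K + 1), dvd_mul_add_iff hmod, one_mul] at hd
      exact h2 hd
  · refine h.dirr D fun i hi hi2 hd => ?_
    have : i = 1 := by omega
    rw [this, pow_one, dvd_mul_sub_iff hq ha hmod] at hd
    exact hD hd
  · rw [pow_zero] at hd
    interval_cases i
    · exact h1 (by simpa using hd)
    · rw [pow_one, dvd_mul_add_iff hmod] at hd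
      exact h2 hd

omit [Finite K] [CharP K p] hp in
theorem sq_sub_one (a : ℕ) : a ^ 2 - 1 = (a + 1) * (a - 1) := by
  have := Nat.sq_sub_sq a 1
  rwa [one_pow] at this

/-- **R3, R9, R10, `q₀ ≥ 5`**: `e = (q₀² - 1) / 2` -/
theorem exists_half (hp2 : p ≠ 2) (hf : ¬ p ∣ f₀) (hK : Nat.card K = p ^ (f₀ * p ^ l)) (h5 : 5 ≤ p ^ f₀) :
    ∃ c : GL (Fin 2) K → ℂ, Good p K 2 (((p ^ f₀) ^ 2 - 1) / 2) c ∧
      c (Matrix.GeneralLinearGroup.scalar (Fin 2) (-1)) = c 1 ∧ dualc (RingHom.id K) c ≠ c ∧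
      (∀ D : Subgroup Kˣ, D.index ≤ 2 → DIrr D c) ∧ DOrth ⊤ c (dualc (RingHom.id K) c) := by
  have hq0 : 1 ≤ p ^ f₀ := by omega
  have hq : 1 ≤ Nat.card K := Nat.card_pos
  have hodd : Odd (p ^ f₀) := (hp.out.odd_of_ne_two hp2).pow
  obtain ⟨r, hr⟩ := hodd
  set a : ℕ := p ^ f₀ with ha
  have h1 : a ^ 2 - 1 = 2 * ((a + 1) * r) := by
    rw [sq_sub_one]
    have h2 : a - 1 = 2 * r := by omega
    rw [h2]; ring
  have he2 : (a ^ 2 - 1) / 2 = (a + 1) * r := by rw [h1, Nat.mul_div_cancel_left _ two_pos]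
  have he : (a ^ 2 - 1) / 2 ∣ a ^ 2 - 1 := by rw [he2, h1]; exact dvd_mul_left _ _
  have hr2 : 2 ≤ r := by omega
  have hbig : 2 * (a + 1) ≤ (a + 1) * r := by
    calc 2 * (a + 1) = (a + 1) * 2 := mul_comm _ _
      _ ≤ _ := Nat.mul_le_mul_left _ hr2
  have hmod := card_modEq hp2 hK he
  obtain ⟨c, hc⟩ := exists_two hp2 hf hK he (fun h => by
    have := Nat.le_of_dvd (by omega) h
    rw [he2] at this
    omega)
  obtain ⟨g1, g2, g3⟩ := hc.two hq0 hmod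
  have n2 : ¬ (a ^ 2 - 1) / 2 ∣ 2 := fun h => by
    have := Nat.le_of_dvd two_pos h
    rw [he2] at this
    omega
  have n3 : ¬ (a ^ 2 - 1) / 2 ∣ a + 1 := fun h => by
    have := Nat.le_of_dvd (by omega) h
    rw [he2] at this
    omega
  refine ⟨c, hc, ?_, g1 n2 n3, fun D hD => g2 D fun h => ?_, g3 ⊤ ?_ ?_⟩
  · refine hc.scal_neg_one ?_
    -- `(q² - 1) / e` is even
    have h3 : a ^ 2 - 1 ∣ Nat.card K ^ 2 - 1 := by
      have h6 : (a ^ p ^ l) ^ 2 = (a ^ 2) ^ p ^ l := pow_right_comm a (p ^ l) 2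
      rw [hK, pow_mul, ← ha, h6]
      have := Nat.sub_dvd_pow_sub_pow (a ^ 2) 1 (p ^ l)
      rwa [one_pow] at this
    obtain ⟨t, ht⟩ := h3
    rw [ht, he2, h1]
    have h4 : 0 < (a + 1) * r := Nat.mul_pos (by omega) (by omega)
    rw [show 2 * ((a + 1) * r) * t = (a + 1) * r * (2 * t) by ring, Nat.mul_div_cancel_left _ h4]
    exact even_two_mul t
  · have h0 : 0 < D.index := index_pos D
    have := Nat.le_of_dvd (Nat.mul_pos h0 (by omega)) h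
    rw [he2] at this
    have h6 : D.index * (a - 1) ≤ 2 * (a - 1) := Nat.mul_le_mul_right _ hD
    omega
  · rw [Subgroup.index_top, one_mul]; exact n2
  · rw [Subgroup.index_top, one_mul]; exact n3

/-- **R8; R5, R9, R10 with `q₀ = 3`, `e = 8`**: `e = q₀² - 1` -/
theorem exists_full (hp2 : p ≠ 2) (hf : ¬ p ∣ f₀) (hK : Nat.card K = p ^ (f₀ * p ^ l)) :
    ∃ c : GL (Fin 2) K → ℂ, Good p K 2 ((p ^ f₀) ^ 2 - 1) c ∧ dualc (RingHom.id K) c ≠ c ∧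
      (∀ D : Subgroup Kˣ, D.index ≤ 2 → DIrr D c) ∧ DOrth ⊤ c (dualc (RingHom.id K) c) := by
  have h3 : 3 ≤ p ^ f₀ := three_le hp2 hf
  have hq0 : 1 ≤ p ^ f₀ := by omega
  set a : ℕ := p ^ f₀ with ha
  have he2 : a ^ 2 - 1 = (a + 1) * (a - 1) := sq_sub_one a
  have hbig : 2 * (a + 1) ≤ a ^ 2 - 1 := by
    rw [he2, mul_comm 2]
    exact Nat.mul_le_mul_left _ (by omega)
  have hmod := card_modEq hp2 hK (dvd_refl (a ^ 2 - 1))
  obtain ⟨c, hc⟩ := exists_two hp2 hf hK (dvd_refl _) (fun h => by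
    rw [← ha] at h
    have := Nat.le_of_dvd (by omega) h
    omega)
  obtain ⟨g1, g2, g3⟩ := hc.two hq0 hmod
  have n2 : ¬ a ^ 2 - 1 ∣ 2 := fun h => by
    have := Nat.le_of_dvd two_pos h
    omega
  have n3 : ¬ a ^ 2 - 1 ∣ a + 1 := fun h => by
    have := Nat.le_of_dvd (by omega) h
    omega
  refine ⟨c, hc, g1 n2 n3, fun D hD => g2 D fun h => ?_, g3 ⊤ ?_ ?_⟩
  · have h0 : 0 < D.index := index_pos D
    have := Nat.le_of_dvd (Nat.mul_pos h0 (by omega)) h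
    have h6 : D.index * (a - 1) ≤ 2 * (a - 1) := Nat.mul_le_mul_right _ hD
    rw [← ha] at this
    omega
  · rw [Subgroup.index_top, one_mul]; exact n2
  · rw [Subgroup.index_top, one_mul]; exact n3

/-- **R1; R4 with `q₀ = 3`, `e = 4`**: `e = q₀ + 1` -/
theorem exists_plus (hp2 : p ≠ 2) (hf : ¬ p ∣ f₀) (hK : Nat.card K = p ^ (f₀ * p ^ l)) :
    ∃ c : GL (Fin 2) K → ℂ, Good p K 2 (p ^ f₀ + 1) c ∧ dualc (RingHom.id K) c = c ∧
      (∀ (z : Kˣ) (g : GL (Fin 2) K), c (Matrix.GeneralLinearGroup.scalar (Fin 2) z * g) = c g) ∧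
      (∀ D : Subgroup Kˣ, ¬ p ^ f₀ + 1 ∣ D.index * 2 → DIrr D c) := by
  have h3 : 3 ≤ p ^ f₀ := three_le hp2 hf
  have hq0 : 1 ≤ p ^ f₀ := by omega
  have hq : 1 ≤ Nat.card K := Nat.card_pos
  set a : ℕ := p ^ f₀ with ha
  have he2 : a ^ 2 - 1 = (a + 1) * (a - 1) := sq_sub_one a
  have he : a + 1 ∣ a ^ 2 - 1 := by rw [he2]; exact dvd_mul_right _ _
  have hmod := card_modEq hp2 hK he
  obtain ⟨c, hc⟩ := exists_two hp2 hf hK he (fun h => by
    have := Nat.le_of_dvd (by omega) h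
    omega)
  obtain ⟨g1, g2, g3⟩ := hc.two hq0 hmod
  have hqd : a + 1 ∣ Nat.card K + 1 := by
    have h4 := (dvd_mul_add_iff (d := 1) hmod).2 (by rw [one_mul])
    rwa [one_mul] at h4
  refine ⟨c, hc, hc.sdual _ 0 1 (fun x => by rw [pow_zero, pow_one]; rfl) ?_, fun z g => hc.scal z ?_ g,
    fun D hD => g2 D fun h => hD ?_⟩
  · rw [pow_one, pow_zero]
    exact hqd
  · obtain ⟨t, ht⟩ := hqd
    have h4 : Nat.card K ^ 2 - 1 = (a + 1) * ((Nat.card K - 1) * t) := by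
      rw [sq_sub_one, ht]; ring
    rw [h4, Nat.mul_div_cancel_left _ (by omega), pow_mul, ← Nat.card_units, pow_card_eq_one', one_pow]
  · -- `a - 1 = (a + 1) - 2`
    have h4 : D.index * (a - 1) + D.index * 2 = D.index * (a + 1) := by
      rw [← mul_add]
      congr 1
      omega
    have h5 : a + 1 ∣ D.index * (a - 1) + D.index * 2 := by rw [h4]; exact dvd_mul_left _ _
    exact (Nat.dvd_add_right h).1 h5

end

/-! ### `k = 4`, `e = 20`, `q₀ = 3` -/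

theorem three_pow_mod (l : ℕ) : 3 ^ 3 ^ l % 20 = 3 ∨ 3 ^ 3 ^ l % 20 = 7 := by
  induction l with
  | zero => left; rfl
  | succ l ih =>
    rw [pow_succ 3 l, pow_mul, Nat.pow_mod]
    rcases ih with h | h <;> rw [h] <;> simp

theorem three_pow_cases (n : ℕ) : 3 ^ n % 20 = 1 ∨ 3 ^ n % 20 = 3 ∨ 3 ^ n % 20 = 9 ∨ 3 ^ n % 20 = 7 := by
  induction n with
  | zero => left; rfl
  | succ n ih => rw [pow_succ, Nat.mul_mod]; rcases ih with h | h | h | h <;> rw [h] <;> simp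

/-- **R3, R9, R10, `q₀ = 3`**: `k = 4`, `e = 20` -/
theorem exists_four {K : Type u} [Field K] [Finite K] [CharP K 3] {l : ℕ} (hK : Nat.card K = 3 ^ 3 ^ l) :
    ∃ c : GL (Fin 4) K → ℂ, Good 3 K 4 20 c ∧
      c (Matrix.GeneralLinearGroup.scalar (Fin 4) (-1)) = c 1 ∧ dualc (RingHom.id K) c ≠ c ∧
      (∀ D : Subgroup Kˣ, D.index ≤ 2 → DIrr D c) ∧ DOrth ⊤ c (dualc (RingHom.id K) c) := by
  have hp : Fact (Nat.Prime 3) := ⟨Nat.prime_three⟩
  have hmod := three_pow_mod l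
  rw [← hK] at hmod
  have hq : 1 ≤ Nat.card K := Nat.card_pos
  have hpow : ∀ i, Nat.card K ^ i % 20 = (Nat.card K % 20) ^ i % 20 := fun i => Nat.pow_mod _ _ _
  have hsub : ∀ i d : ℕ, 20 ∣ d * (Nat.card K ^ i - 1) → (d * (Nat.card K ^ i % 20)) % 20 = d % 20 := by
    intro i d h
    have h1 : 1 ≤ Nat.card K ^ i := Nat.one_le_pow _ _ hq
    have h2 : d * (Nat.card K ^ i - 1) = d * Nat.card K ^ i - d := by rw [Nat.mul_sub, mul_one]
    have h3 : d ≤ d * Nat.card K ^ i := Nat.le_mul_of_pos_right d h1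
    rw [h2] at h
    have h4 : d ≡ d * Nat.card K ^ i [MOD 20] := (Nat.modEq_iff_dvd' h3).2 h
    rw [Nat.ModEq] at h4
    rw [h4, Nat.mul_mod d (Nat.card K ^ i), Nat.mul_mod, Nat.mod_mod]
  obtain ⟨c, hc⟩ := exists_dat (p := 3) (K := K) (k := 4) (e := 20) (by norm_num)
    ((dvd_sub_one_iff (Nat.one_le_pow _ _ hq)).2 (by
      rw [Nat.ModEq, hpow]
      rcases hmod with h | h <;> rw [h] <;> rfl)) (fun i hi hi4 h => by
      have h1 := hsub i 1 (by rw [one_mul]; exact h)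
      rw [one_mul, hpow] at h1
      interval_cases i <;> rcases hmod with h | h <;> rw [h] at h1 <;> revert h1 <;> decide)
  have hG : Good 3 K 4 20 c := ⟨hc, hc.hfix (m := 1) (by decide) fun n => by
    rw [mul_one]
    have h1 : Nat.card K % 20 = 3 → ∀ i, Nat.card K ^ i % 20 = 3 ^ i % 20 := fun h i => by rw [hpow, h]
    have h2 : Nat.card K % 20 = 7 → ∀ i, Nat.card K ^ i % 20 = 7 ^ i % 20 := fun h i => by rw [hpow, h]
    simp only [Nat.ModEq]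
    rcases hmod with h | h
    · exact ⟨n, (h1 h n).symm⟩
    · rcases three_pow_cases n with h3 | h3 | h3 | h3
      · exact ⟨0, by rw [h2 h, h3]; rfl⟩
      · exact ⟨3, by rw [h2 h, h3]; rfl⟩
      · exact ⟨2, by rw [h2 h, h3]; rfl⟩
      · exact ⟨1, by rw [h2 h, h3]; rfl⟩⟩
  have hdual : ∀ i < 4, ¬ 20 ∣ Nat.card K ^ i + 3 ^ 0 := by
    intro i hi h
    rw [pow_zero] at h
    have h1 : (Nat.card K ^ i % 20 + 1) % 20 = 0 := by omega
    rw [hpow] at h1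
    interval_cases i <;> rcases hmod with h | h <;> rw [h] at h1 <;> revert h1 <;> decide
  refine ⟨c, hG, hc.scal_neg_one ?_, hc.dual _ 0 (fun x => by rw [pow_zero, pow_one]; rfl) hdual, fun D hD =>
    hc.dirr D fun i hi hi4 h => ?_, hc.dorth ⊤ _ 0 (fun x => by rw [pow_zero, pow_one]; rfl) fun i hi h => ?_⟩
  · -- `16 ∣ q ^ 4 - 1`
    have h16 : Nat.card K ^ 4 % 40 = 1 := by
      have h1 : Nat.card K % 40 = 3 ∨ Nat.card K % 40 = 7 ∨ Nat.card K % 40 = 23 ∨ Nat.card K % 40 = 27 := by omega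
      rw [Nat.pow_mod]
      rcases h1 with h | h | h | h <;> rw [h]
    have h2 : 40 ∣ Nat.card K ^ 4 - 1 := by
      have h3 : 1 ≤ Nat.card K ^ 4 := Nat.one_le_pow _ _ hq
      omega
    obtain ⟨t, ht⟩ := h2
    rw [ht, show 40 * t = 20 * (2 * t) by ring, Nat.mul_div_cancel_left _ (by norm_num)]
    exact even_two_mul t
  · have h0 : 0 < D.index := index_pos D
    have h1 := hsub i _ h
    rw [hpow] at h1
    have h2 : D.index = 1 ∨ D.index = 2 := by omega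
    rcases h2 with h2 | h2 <;> rw [h2] at h1 <;> interval_cases i <;>
      rcases hmod with h | h <;> rw [h] at h1 <;> revert h1 <;> decide
  · rw [Subgroup.index_top, one_mul] at h
    exact hdual i hi h

/-! ### unitary groups -/

/-- **R6**: `|K| = q²`, `q = q₀ ^ p ^ l`, `k = 2`, `e = (q₀² + 1) / 2` -/
theorem exists_unitary {p : ℕ} [hp : Fact p.Prime] {K : Type u} [Field K] [Finite K] [CharP K p] (hp2 : p ≠ 2)
    {f₀ l : ℕ} (hf : ¬ p ∣ f₀) (hK : Nat.card K = (p ^ (f₀ * p ^ l)) ^ 2) :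
    ∃ c : GL (Fin 2) K → ℂ, Good p K 2 (((p ^ f₀) ^ 2 + 1) / 2) c ∧
      (∀ (z : Kˣ) (g : GL (Fin 2) K), c (Matrix.GeneralLinearGroup.scalar (Fin 2) z * g) = c g) ∧
      DIrr ⊥ c ∧ ∀ σ : K →+* K, (∀ x, σ x = x ^ p ^ (f₀ * p ^ l)) → DOrth ⊥ c (dualc σ c) ∧ dualc σ c ≠ c := by
  have hq : 1 ≤ Nat.card K := Nat.card_pos
  have h3 : 3 ≤ p ^ f₀ := three_le hp2 hf
  have hodd : Odd (p ^ f₀) := (hp.out.odd_of_ne_two hp2).pow
  obtain ⟨r, hr⟩ := hodd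
  have ha2 : (p ^ f₀) ^ 2 + 1 = 2 * (2 * r ^ 2 + 2 * r + 1) := by rw [hr]; ring
  have he2 : ((p ^ f₀) ^ 2 + 1) / 2 = 2 * r ^ 2 + 2 * r + 1 := by rw [ha2, Nat.mul_div_cancel_left _ two_pos]
  set e : ℕ := ((p ^ f₀) ^ 2 + 1) / 2 with he_def
  have hr1 : 1 ≤ r := by omega
  have he5 : 5 ≤ e := by
    rw [he2]
    have : 1 ≤ r ^ 2 := Nat.one_le_pow _ _ hr1
    omega
  have heodd : Odd e := ⟨r ^ 2 + r, by rw [he2]; ring⟩
  set b : ℕ := (p ^ f₀) ^ 2 with hb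
  have hb1 : 1 ≤ b := Nat.one_le_pow _ _ (by omega)
  have heb : e ∣ b + 1 := by rw [ha2, he2]; exact dvd_mul_left _ _
  have hb2 : e ∣ b ^ 2 - 1 := by rw [sq_sub_one]; exact Dvd.dvd.mul_right heb _
  have hKb : Nat.card K = b ^ p ^ l := by
    rw [hK, hb, ← pow_mul, ← pow_mul, ← pow_mul]
    congr 1
    ring
  have hmod : Nat.card K ≡ b [MOD e] := by
    rw [hKb]
    exact odd_pow_modEq hb1 hb2 ((hp.out.odd_of_ne_two hp2).pow)
  -- `Q ≡ -1`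
  have hQ : (e : ℤ) ∣ (Nat.card K : ℤ) + 1 := by
    have h1 := (dvd_mul_add_iff (d := 1) hmod).2 (by rw [one_mul]; exact heb)
    rw [one_mul] at h1
    exact_mod_cast h1
  have hsmall : ∀ n : ℕ, 0 < n → n < 5 → ¬ (e : ℤ) ∣ (n : ℤ) := fun n h0 hn h => by
    have := Nat.le_of_dvd h0 (Int.natCast_dvd_natCast.1 h)
    omega
  have h1 : e ∣ Nat.card K ^ 2 - 1 := by
    rw [sq_sub_one]
    exact Dvd.dvd.mul_right (by exact_mod_cast hQ) _
  obtain ⟨c, hc⟩ := exists_dat (p := p) (K := K) two_pos h1 (fun i hi hi2 h => by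
    have : i = 1 := by omega
    rw [this, pow_one] at h
    have h4 : (e : ℤ) ∣ ((Nat.card K - 1 : ℕ) : ℤ) := Int.natCast_dvd_natCast.2 h
    rw [Nat.cast_sub hq] at h4
    have h5 : (e : ℤ) ∣ ((2 : ℕ) : ℤ) := by
      have := dvd_sub hQ h4
      have h6 : (Nat.card K : ℤ) + 1 - ((Nat.card K : ℤ) - ((1 : ℕ) : ℤ)) = ((2 : ℕ) : ℤ) := by push_cast; ring
      rwa [h6] at this
    exact hsmall 2 (by norm_num) (by norm_num) h5)
  have hG : Good p K 2 e c := ⟨hc, hc.hfix (m := 2 * f₀) (fun h => by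
      rcases (Nat.Prime.dvd_mul hp.out).1 h with h | h
      · exact hp2 ((Nat.prime_dvd_prime_iff_eq hp.out Nat.prime_two).1 h)
      · exact hf h) fun n => ⟨n, by
    have h4 : p ^ (n * (2 * f₀)) = b ^ n := by
      rw [hb, ← pow_mul, ← pow_mul]
      congr 1
      ring
    rw [h4]
    exact (hmod.symm.pow n)⟩⟩
  -- the arithmetic of the duality
  have hcop : IsCoprime (e : ℤ) (2 : ℤ) := by
    have h4 : Nat.Coprime e 2 := Nat.coprime_two_right.2 heodd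
    exact_mod_cast Nat.isCoprime_iff_coprime.2 h4
  set q : ℕ := p ^ (f₀ * p ^ l) with hq_def
  have hKq : (Nat.card K : ℤ) = (q : ℤ) ^ 2 := by rw [hK]; push_cast; rfl
  have hno : ∀ (m : ℤ), (m = q + 1 ∨ m = q - 1) → ¬ (e : ℤ) ∣ m := by
    intro m hm h
    have h4 : (e : ℤ) ∣ (q : ℤ) ^ 2 - 1 := by
      have h5 : (q : ℤ) ^ 2 - 1 = (q + 1) * (q - 1) := by ring
      rw [h5]
      rcases hm with rfl | rfl
      · exact Dvd.dvd.mul_right h _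
      · exact Dvd.dvd.mul_left h _
    rw [hKq] at hQ
    have h6 := dvd_sub hQ h4
    have h7 : (q : ℤ) ^ 2 + 1 - ((q : ℤ) ^ 2 - 1) = ((2 : ℕ) : ℤ) := by push_cast; ring
    rw [h7] at h6
    exact hsmall 2 (by norm_num) (by norm_num) h6
  have hno2 : ∀ (d : ℕ), (d = 1 ∨ d = Nat.card K - 1) → ∀ i < 2, ¬ e ∣ d * (Nat.card K ^ i + q) := by
    intro d hd i hi h
    have h4 : (e : ℤ) ∣ ((Nat.card K ^ i + q : ℕ) : ℤ) := by
      have h5 : (e : ℤ) ∣ ((d * (Nat.card K ^ i + q) : ℕ) : ℤ) := Int.natCast_dvd_natCast.2 h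
      rcases hd with rfl | rfl
      · rwa [one_mul] at h5
      · rw [Nat.cast_mul, Nat.cast_sub hq] at h5
        have h6 : (e : ℤ) ∣ 2 * ((Nat.card K ^ i + q : ℕ) : ℤ) := by
          have h7 := dvd_sub (Dvd.dvd.mul_right hQ ((Nat.card K ^ i + q : ℕ) : ℤ)) h5
          have h8 : ((Nat.card K : ℤ) + 1) * ((Nat.card K ^ i + q : ℕ) : ℤ) -
              ((Nat.card K : ℤ) - ((1 : ℕ) : ℤ)) * ((Nat.card K ^ i + q : ℕ) : ℤ) =
              2 * ((Nat.card K ^ i + q : ℕ) : ℤ) := by push_cast; ring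
          rwa [h8] at h7
        exact hcop.dvd_of_dvd_mul_left h6
    interval_cases i
    · refine hno _ (Or.inl ?_) h4
      push_cast
      ring
    · have h5 := dvd_sub h4 hQ
      refine hno _ (Or.inr ?_) h5
      push_cast
      ring
  refine ⟨c, hG, fun z g => hc.scal z ?_ g, hc.dirr ⊥ fun i hi hi2 h => ?_, fun σ hσ =>
    ⟨hc.dorth ⊥ σ _ hσ fun i hi h => ?_, hc.dual σ _ hσ fun i hi h => ?_⟩⟩
  · have h4 : e ∣ Nat.card K + 1 := by exact_mod_cast hQ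
    obtain ⟨t, ht⟩ := h4
    have h5 : Nat.card K ^ 2 - 1 = e * ((Nat.card K - 1) * t) := by
      rw [sq_sub_one, ht]; ring
    rw [h5, Nat.mul_div_cancel_left _ (by omega), pow_mul, ← Nat.card_units, pow_card_eq_one', one_pow]
  · have : i = 1 := by omega
    rw [this, pow_one, Subgroup.index_bot, Nat.card_units] at h
    have h4 : (e : ℤ) ∣ (((Nat.card K - 1) * (Nat.card K - 1) : ℕ) : ℤ) := Int.natCast_dvd_natCast.2 h
    rw [Nat.cast_mul, Nat.cast_sub hq] at h4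
    have h5 : (e : ℤ) ∣ ((4 : ℕ) : ℤ) := by
      have h6 := dvd_sub h4 (Dvd.dvd.mul_right hQ ((Nat.card K : ℤ) - 3))
      have h7 : ((Nat.card K : ℤ) - ((1 : ℕ) : ℤ)) * ((Nat.card K : ℤ) - ((1 : ℕ) : ℤ)) -
          ((Nat.card K : ℤ) + 1) * ((Nat.card K : ℤ) - 3) = ((4 : ℕ) : ℤ) := by push_cast; ring
      rwa [h7] at h6
    exact hsmall 4 (by norm_num) (by norm_num) h5
  · rw [Subgroup.index_bot, Nat.card_units] at h
    exact hno2 _ (Or.inr rfl) i hi h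
  · exact hno2 1 (Or.inl rfl) i hi (by rw [one_mul]; exact h)

end Cfsg.Agent.H949.OC
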